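import Cfsg.Agent.H546.IF.OddBase
import Cfsg.Agent.H300.OuterJThree

/-!
# S5719, `J₃`: `16 ∣ |C(σ)|` for the outer involutions `σ` (helper469)

`σ` fixes an involution `z`; on `C(z) = 2^{1+4}_- : A₅` it induces a transposition of the five classes of involutions.
`C_Q(σ)` is not abelian, and `σ` fixes an element of `C(z)` outside `Q` which is an involution modulo `Q`.
-/

set_option autoImplicit false
set_option linter.unusedSectionVars false

namespace Cfsg.Agent.H469.IF

open Subgroup Cfsg Cfsg.Agent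
open Cfsg.Agent.J2Type.Model Cfsg.Agent.J2Type.CStruct Cfsg.Agent.J3Type.OneClass
open Cfsg.Agent.KFacts.J3Sheet Cfsg.Agent.KFacts

universe u

/-! ### Permutations -/

theorem perm_one : ∀ σ : Equiv.Perm (Fin 5), Equiv.Perm.sign σ = -1 → σ * σ = 1 →
    ∃ π : Equiv.Perm (Fin 5), Equiv.Perm.sign π = 1 ∧ σ * π = π * Equiv.swap 0 1 := by
  decide +kernel

theorem perm_two : ∀ s : Fin 5 → ZMod 2, s 2 + s 3 + s 4 = 1 →
    ∃ π : Equiv.Perm (Fin 5), Equiv.swap 0 1 * π = π * Equiv.swap 0 1 ∧ s (π 2) = 1 ∧ s (π 3) = s (π 4) := by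
  decide +kernel

/-! ### Groups of order a power of two -/

theorem eight_dvd {P : Type*} [Group P] [Finite P] {m : ℕ} (h : Nat.card P ∣ 2 ^ m) {x y : P} (hxy : x * y ≠ y * x) :
    8 ∣ Nat.card P := by
  obtain ⟨n, -, hn⟩ := (Nat.dvd_prime_pow Nat.prime_two).1 h
  have : Fact (Nat.Prime 2) := ⟨Nat.prime_two⟩
  have hn3 : 3 ≤ n := by
    by_contra hlt
    apply hxy
    have h3 : n = 0 ∨ n = 1 ∨ n = 2 := by omega
    rcases h3 with rfl | rfl | rfl
    · have : Subsingleton P := (Nat.card_eq_one_iff_unique.1 (by simpa using hn)).1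
      exact Subsingleton.elim _ _
    · have : IsCyclic P := isCyclic_of_prime_card (p := 2) (by simpa using hn)
      exact (IsCyclic.isMulCommutative (α := P)).is_comm.comm x y
    · exact (IsPGroup.isMulCommutative_of_card_eq_prime_sq hn).is_comm.comm x y
  rw [hn]
  exact (by norm_num : (8 : ℕ) = 2 ^ 3) ▸ pow_dvd_pow 2 hn3

section core

variable {C : Type*} [Group C] {Q : Subgroup C} {z : C} {v : Fin 5 → C} {ρ : C →* SP}

theorem zp_mul_zp_mul (M : IsModel Q z v ρ) (a b : ZMod 2) (x y : C) :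
    (zp z a * x) * (zp z b * y) = zp z (a + b) * (x * y) := by
  rw [zp_add z M.z_sq]
  calc (zp z a * x) * (zp z b * y) = zp z a * (x * zp z b) * y := by group
    _ = zp z a * (zp z b * x) * y := by rw [zp_comm z M.z_comm]
    _ = _ := by group

theorem zp_inj (M : IsModel Q z v ρ) {a b : ZMod 2} (h : zp z a = zp z b) : a = b :=
  (M.v_inj a b 0 0 (by rw [h])).1

variable {a : MulAut C} {s : Fin 5 → ZMod 2} {σ : Equiv.Perm (Fin 5)}

theorem a_zp (haz : a z = z) (b : ZMod 2) : a (zp z b) = zp z b := by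
  rcases zmod2_cases b with rfl | rfl
  · rw [zp_zero, map_one]
  · rw [zp_one, haz]

/-- `σ` and `s` are involutory -/
theorem sq_facts (M : IsModel Q z v ρ) (haz : a z = z) (haa : ∀ x, a (a x) = x)
    (A : ∀ i, a (v i) = zp z (s i) * v (σ i)) (i : Fin 5) : s i + s (σ i) = 0 ∧ σ (σ i) = i := by
  have h := haa (v i)
  rw [A, map_mul, A, a_zp haz, ← mul_assoc, ← zp_add z M.z_sq] at h
  have h1 := M.v_inj (s i + s (σ i)) 0 (σ (σ i)) i (by rw [h, zp_zero, one_mul])
  exact h1

theorem eq_of_add {x y : ZMod 2} (h : x + y = 0) : x = y := by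
  revert x y
  decide

/-- the product relation -/
theorem prod_pi (M : IsModel Q z v ρ) {π : Equiv.Perm (Fin 5)} (hπ : Equiv.Perm.sign π = 1) :
    v (π 0) * v (π 1) * v (π 2) * v (π 3) * v (π 4) = 1 := by
  obtain ⟨c, hc⟩ := QMinus.exists_c M π hπ
  rw [← hc, ← hc, ← hc, ← hc, ← hc]
  calc _ = c * (v 0 * v 1 * v 2 * v 3 * v 4) * c⁻¹ := by group
    _ = 1 := by rw [M.v_prod]; group

theorem sum_eq (M : IsModel Q z v ρ) (haz : a z = z) (haa : ∀ x, a (a x) = x)
    (A : ∀ i, a (v i) = zp z (s i) * v (σ i)) {π : Equiv.Perm (Fin 5)} (hπ : Equiv.Perm.sign π = 1)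
    (hσ : σ * π = π * Equiv.swap 0 1) : s (π 2) + s (π 3) + s (π 4) = 1 := by
  have hs : ∀ i, σ (π i) = π (Equiv.swap 0 1 i) := fun i => congrArg (fun f : Equiv.Perm (Fin 5) => f i) hσ
  have h0 : σ (π 0) = π 1 := by rw [hs]; congr 1
  have h1 : σ (π 1) = π 0 := by rw [hs]; congr 1
  have h2 : σ (π 2) = π 2 := by rw [hs]; congr 1
  have h3 : σ (π 3) = π 3 := by rw [hs]; congr 1
  have h4 : σ (π 4) = π 4 := by rw [hs]; congr 1
  have hs01 := (sq_facts M haz haa A (π 0)).1
  rw [h0] at hs01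
  have hp := prod_pi M hπ
  have hp' := congrArg a hp
  rw [map_mul a, map_mul a, map_mul a, map_mul a, map_one a, A, A, A, A, A, h0, h1, h2, h3, h4, zp_mul_zp_mul M,
    zp_mul_zp_mul M, zp_mul_zp_mul M, zp_mul_zp_mul M, hs01, zero_add,
    M.v_anti (π 1) (π 0) (fun h => absurd (π.injective h) (by decide))] at hp'
  have e : z * (v (π 0) * v (π 1)) * v (π 2) * v (π 3) * v (π 4) = z := by
    calc _ = z * (v (π 0) * v (π 1) * v (π 2) * v (π 3) * v (π 4)) := by group
      _ = z := by rw [hp, mul_one]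
  rw [e] at hp'
  apply zp_inj M
  rw [zp_one]
  calc zp z (s (π 2) + s (π 3) + s (π 4)) = zp z (s (π 2) + s (π 3) + s (π 4)) * z * z⁻¹ := by group
    _ = z⁻¹ := by rw [hp', one_mul]
    _ = z := inv_eq_of_mul_eq_one_left M.z_sq

theorem swap_one : ∀ i : Fin 5, Equiv.swap 0 1 ((Equiv.swap 0 1 * Equiv.swap 3 4 : Equiv.Perm (Fin 5)) (Equiv.swap 0 1 i)) =
    (Equiv.swap 0 1 * Equiv.swap 3 4 : Equiv.Perm (Fin 5)) i := by
  decide

theorem swap_two : ∀ i : Fin 5, (Equiv.swap 0 1 * Equiv.swap 3 4 : Equiv.Perm (Fin 5)) (Equiv.swap 0 1 i) =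
    Equiv.swap 3 4 i := by
  decide

/-- a fixed element outside `Q` -/
theorem exists_out (M : IsModel Q z v ρ) (haz : a z = z) (haa : ∀ x, a (a x) = x)
    (A : ∀ i, a (v i) = zp z (s i) * v (σ i)) {π : Equiv.Perm (Fin 5)}
    (hσ : σ * π = π * Equiv.swap 0 1) (ht2 : s (π 2) = 1) (ht : s (π 3) = s (π 4)) :
    ∃ c, a c = c ∧ orderOf (QMinus.permHom ρ c) = 2 := by
  have hs : ∀ i, σ (π i) = π (Equiv.swap 0 1 i) := fun i => congrArg (fun f : Equiv.Perm (Fin 5) => f i) hσ
  set q : Equiv.Perm (Fin 5) := Equiv.swap 0 1 * Equiv.swap 3 4 with hq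
  set κ : Equiv.Perm (Fin 5) := π * q * π⁻¹ with hκ
  have hκs : Equiv.Perm.sign κ = 1 := by
    rw [hκ, Equiv.Perm.sign_mul, Equiv.Perm.sign_mul, Equiv.Perm.sign_inv, mul_comm, ← mul_assoc, Int.units_mul_self,
      one_mul, hq]
    decide
  have hκi : ∀ i, κ (π i) = π (q i) := by
    intro i
    rw [hκ, Equiv.Perm.mul_apply, Equiv.Perm.mul_apply]
    exact congrArg (fun j => π (q j)) (π.symm_apply_apply i)
  have hκ2 : orderOf κ = 2 := by
    refine orderOf_eq_prime ?_ ?_
    · have e : κ ^ 2 = π * (q * q) * π⁻¹ := by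
        rw [hκ, pow_two]
        simp only [mul_assoc, inv_mul_cancel_left]
      rw [e, show q * q = 1 by rw [hq]; decide, mul_one, mul_inv_cancel]
    · intro h
      have h1 := hκi 0
      rw [h, Equiv.Perm.one_apply] at h1
      exact absurd (π.injective h1) (by rw [hq]; decide)
  obtain ⟨c, hc⟩ := QMinus.exists_c M κ hκs
  have hρc : QMinus.permHom ρ c = κ := by
    ext j
    congr 1
    have h1 := M.conj c j
    rw [hc] at h1
    have h2 : zp z 0 * v (κ j) = zp z ((ρ c).s j) * v ((ρ c).σ j) := by rw [zp_zero, one_mul, h1]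
    exact (M.v_inj _ _ _ _ h2).2.symm
  -- `a c` acts as `c`
  have hac : ∀ i, a c * v (π i) * (a c)⁻¹ = v (π (q i)) := by
    intro i
    have h1 : v (π i) = a (zp z (s (π i)) * v (π (Equiv.swap 0 1 i))) := by
      rw [← hs, ← A, haa]
    have h2 : c * (zp z (s (π i)) * v (π (Equiv.swap 0 1 i))) * c⁻¹ =
        zp z (s (π i)) * v (π (q (Equiv.swap 0 1 i))) := by
      rw [← hκi, ← hc, ← mul_assoc c, zp_comm z M.z_comm]
      group
    calc a c * v (π i) * (a c)⁻¹ = a (c * (zp z (s (π i)) * v (π (Equiv.swap 0 1 i))) * c⁻¹) := by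
          rw [map_mul, map_mul, map_inv, ← h1]
      _ = a (zp z (s (π i)) * v (π (q (Equiv.swap 0 1 i)))) := by rw [h2]
      _ = zp z (s (π i)) * (zp z (s (π (q (Equiv.swap 0 1 i)))) * v (π (Equiv.swap 0 1 (q (Equiv.swap 0 1 i))))) := by
          rw [map_mul, a_zp haz, A, hs]
      _ = zp z (s (π i) + s (π (q (Equiv.swap 0 1 i)))) * v (π (Equiv.swap 0 1 (q (Equiv.swap 0 1 i)))) := by
          rw [zp_add z M.z_sq, mul_assoc]
      _ = v (π (q i)) := by
          have e1 : Equiv.swap 0 1 (q (Equiv.swap 0 1 i)) = q i := swap_one i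
          have e2 : s (π i) + s (π (q (Equiv.swap 0 1 i))) = 0 := by
            have e3 : q (Equiv.swap 0 1 i) = Equiv.swap 3 4 i := swap_two i
            rw [e3]
            have e4 : s (π (Equiv.swap 3 4 i)) = s (π i) := by
              rcases eq_or_ne i 3 with rfl | h3
              · rw [Equiv.swap_apply_left, ht]
              · rcases eq_or_ne i 4 with rfl | h4
                · rw [Equiv.swap_apply_right, ht]
                · rw [Equiv.swap_apply_of_ne_of_ne h3 h4]
            rw [e4]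
            exact CharTwo.add_self_eq_zero _
          rw [e1, e2, zp_zero, one_mul]
  have hcomm : ∀ j, (c⁻¹ * a c) * v j = v j * (c⁻¹ * a c) := by
    intro j
    obtain ⟨i, rfl⟩ := π.surjective j
    have h1 := hac i
    rw [← hκi, ← hc] at h1
    have h2 : a c * v (π i) = c * v (π i) * c⁻¹ * a c := by rw [← h1]; group
    calc (c⁻¹ * a c) * v (π i) = c⁻¹ * (a c * v (π i)) := by group
      _ = c⁻¹ * (c * v (π i) * c⁻¹ * a c) := by rw [h2]
      _ = _ := by group
  have hQ1 : QMinus.permHom ρ (v (π 2)) = 1 := (M.mem_Q _).1 (M.v_mem _)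
  rcases QMinus.cent_Q M hcomm with h | h
  · exact ⟨c, (inv_mul_eq_one.1 h).symm, by rw [hρc, hκ2]⟩
  · refine ⟨c * v (π 2), ?_, by rw [map_mul, hQ1, mul_one, hρc, hκ2]⟩
    have h1 : a c = c * z := by rw [← h]; group
    have h2 : a (v (π 2)) = z * v (π 2) := by
      rw [A, hs, ht2, zp_one]
      congr 2
    rw [map_mul, h1, h2]
    calc c * z * (z * v (π 2)) = c * (z * z) * v (π 2) := by group
      _ = c * v (π 2) := by rw [M.z_sq, mul_one]

/-- two fixed elements of `Q` which do not commute -/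
theorem exists_nc (M : IsModel Q z v ρ)
    (A : ∀ i, a (v i) = zp z (s i) * v (σ i)) {π : Equiv.Perm (Fin 5)}
    (hσ : σ * π = π * Equiv.swap 0 1) (ht2 : s (π 2) = 1) (ht : s (π 3) = s (π 4)) :
    ∃ x y, x ∈ Q ∧ y ∈ Q ∧ a x = x ∧ a y = y ∧ x * y ≠ y * x := by
  have hs : ∀ i, σ (π i) = π (Equiv.swap 0 1 i) := fun i => congrArg (fun f : Equiv.Perm (Fin 5) => f i) hσ
  have h2 : σ (π 2) = π 2 := by rw [hs]; congr 1
  have h3 : σ (π 3) = π 3 := by rw [hs]; congr 1
  have h4 : σ (π 4) = π 4 := by rw [hs]; congr 1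
  have A2 : a (v (π 2)) = z * v (π 2) := by rw [A, h2, ht2, zp_one]
  have a34 : v (π 3) * v (π 4) = z * (v (π 4) * v (π 3)) :=
    M.v_anti _ _ (fun h => absurd (π.injective h) (by decide))
  have a23 : v (π 2) * v (π 3) = z * (v (π 3) * v (π 2)) :=
    M.v_anti _ _ (fun h => absurd (π.injective h) (by decide))
  have a24 : v (π 2) * v (π 4) = z * (v (π 4) * v (π 2)) :=
    M.v_anti _ _ (fun h => absurd (π.injective h) (by decide))
  have hne : ∀ x : C, x ≠ z * x := by
    intro x h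
    exact M.z_ne (mul_eq_right.1 h.symm)
  rcases zmod2_cases (s (π 3)) with h | h
  · have A3 : a (v (π 3)) = v (π 3) := by rw [A, h3, h, zp_zero, one_mul]
    have A4 : a (v (π 4)) = v (π 4) := by rw [A, h4, ← ht, h, zp_zero, one_mul]
    refine ⟨_, _, M.v_mem (π 3), M.v_mem (π 4), A3, A4, ?_⟩
    rw [a34]
    exact (hne _).symm
  · have A3 : a (v (π 3)) = z * v (π 3) := by rw [A, h3, h, zp_one]
    have A4 : a (v (π 4)) = z * v (π 4) := by rw [A, h4, ← ht, h, zp_one]
    have hzz : ∀ x y : C, (z * x) * (z * y) = x * y := by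
      intro x y
      calc (z * x) * (z * y) = z * (x * z) * y := by group
        _ = z * (z * x) * y := by rw [M.z_comm]
        _ = (z * z) * (x * y) := by group
        _ = x * y := by rw [M.z_sq, one_mul]
    refine ⟨v (π 3) * v (π 4), v (π 2) * v (π 3), mul_mem (M.v_mem _) (M.v_mem _), mul_mem (M.v_mem _) (M.v_mem _),
      by rw [map_mul, A3, A4, hzz], by rw [map_mul, A2, A3, hzz], ?_⟩
    have e1 : v (π 2) * v (π 3) * (v (π 3) * v (π 4)) = v (π 2) * v (π 4) := by
      calc _ = v (π 2) * (v (π 3) * v (π 3)) * v (π 4) := by group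
        _ = _ := by rw [M.v_sq, mul_one]
    have e2 : v (π 3) * v (π 4) * (v (π 2) * v (π 3)) = z * (v (π 2) * v (π 4)) := by
      have e3 : v (π 4) * v (π 2) = z * (v (π 2) * v (π 4)) := by
        rw [a24, ← mul_assoc, M.z_sq, one_mul]
      have e4 : v (π 3) * v (π 2) = z * (v (π 2) * v (π 3)) := by
        rw [a23, ← mul_assoc, M.z_sq, one_mul]
      have e5 : v (π 4) * v (π 3) = z * (v (π 3) * v (π 4)) := by
        rw [a34, ← mul_assoc, M.z_sq, one_mul]
      calc v (π 3) * v (π 4) * (v (π 2) * v (π 3)) = v (π 3) * (v (π 4) * v (π 2)) * v (π 3) := by group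
        _ = v (π 3) * (z * (v (π 2) * v (π 4))) * v (π 3) := by rw [e3]
        _ = (v (π 3) * z) * v (π 2) * (v (π 4) * v (π 3)) := by group
        _ = (z * v (π 3)) * v (π 2) * (z * (v (π 3) * v (π 4))) := by rw [M.z_comm, e5]
        _ = z * (v (π 3) * v (π 2)) * (z * (v (π 3) * v (π 4))) := by group
        _ = (v (π 3) * v (π 2)) * (v (π 3) * v (π 4)) := hzz _ _
        _ = (z * (v (π 2) * v (π 3))) * (v (π 3) * v (π 4)) := by rw [e4]
        _ = z * (v (π 2) * v (π 3) * (v (π 3) * v (π 4))) := by group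
        _ = _ := by rw [e1]
    rw [e1, e2]
    exact (hne _).symm

/-- **the fixed points of an involutory automorphism of odd type** -/
theorem core [Finite C] (M : IsModel Q z v ρ) (hcC : Nat.card C = 1920) (haz : a z = z) (haa : ∀ x, a (a x) = x)
    (A : ∀ i, a (v i) = zp z (s i) * v (σ i)) (hσ : Equiv.Perm.sign σ = -1) :
    16 ∣ Nat.card (Cfsg.Agent.H383.Cube.fix a) := by
  have hσσ : σ * σ = 1 := by
    ext i
    congr 1
    exact (sq_facts M haz haa A i).2
  obtain ⟨π₁, hπ₁, h1⟩ := perm_one σ hσ hσσ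
  obtain ⟨π₂, h2, h3, h4⟩ := perm_two (fun i => s (π₁ i)) (sum_eq M haz haa A hπ₁ h1)
  have h5 : σ * (π₁ * π₂) = (π₁ * π₂) * Equiv.swap 0 1 := by
    rw [← mul_assoc, h1, mul_assoc, h2, mul_assoc]
  obtain ⟨c, hac, hc2⟩ := exists_out M haz haa A h5 h3 h4
  obtain ⟨x, y, hx, hy, hax, hay, hxy⟩ := exists_nc M A h5 h3 h4
  set F := Cfsg.Agent.H383.Cube.fix a with hF
  let φ : F →* Equiv.Perm (Fin 5) := (QMinus.permHom ρ).comp F.subtype
  have hcQ : Nat.card Q = 32 := by
    have := QMinus.card_mul M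
    omega
  have hker : ∀ w : φ.ker, ((w : F) : C) ∈ Q := by
    intro w
    rw [← QMinus.ker_permHom M, MonoidHom.mem_ker]
    exact w.2
  have hdv : Nat.card φ.ker ∣ 2 ^ 5 := by
    let ψ : φ.ker →* Q := (F.subtype.comp φ.ker.subtype).codRestrict Q hker
    have hψ : Function.Injective ψ := by
      intro w1 w2 h
      apply Subtype.ext
      apply Subtype.ext
      exact congrArg (fun w : Q => (w : C)) h
    have := Subgroup.card_dvd_of_injective ψ hψ
    rwa [hcQ] at this
  have h8 : 8 ∣ Nat.card φ.ker := by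
    have hxk : (⟨x, hax⟩ : F) ∈ φ.ker := by
      rw [MonoidHom.mem_ker]
      exact (M.mem_Q x).1 hx
    have hyk : (⟨y, hay⟩ : F) ∈ φ.ker := by
      rw [MonoidHom.mem_ker]
      exact (M.mem_Q y).1 hy
    refine eight_dvd hdv (x := ⟨_, hxk⟩) (y := ⟨_, hyk⟩) fun h => hxy ?_
    exact congrArg (fun w : φ.ker => ((w : F) : C)) h
  have h2r : 2 ∣ Nat.card φ.range := by
    have h6 : φ ⟨c, hac⟩ ∈ φ.range := ⟨_, rfl⟩
    have h7 := orderOf_dvd_natCard (⟨φ ⟨c, hac⟩, h6⟩ : φ.range)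
    rw [Subgroup.orderOf_mk] at h7
    rwa [show orderOf (φ ⟨c, hac⟩) = 2 from hc2] at h7
  have h9 := φ.ker.card_mul_index
  rw [Subgroup.index_ker] at h9
  rw [← h9]
  exact (by norm_num : (16 : ℕ) = 8 * 2) ▸ Nat.mul_dvd_mul h8 h2r

end core

/-- **`J₃`: `16` divides the order of the centraliser of an outer involutory automorphism.** -/
theorem out_J3 {T : Type u} [Group T] (h : Spor.IsoJ3 T) :
    Cfsg.Agent.H546.IFO.OutP T fun σ => 2 ^ 4 ∣ Nat.card (Cfsg.Agent.H383.Cube.fix σ) := by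
  intro x hx2 hout
  obtain ⟨-, z, Q, v, ρ, n, u, F⟩ := KFacts.J3.exists_facts h
  have hcK := F.card_K
  have hfin : Finite T := Nat.finite_of_card_ne_zero (by rw [hcK]; norm_num)
  have hxx : x * x = 1 := by rw [← pow_two, ← hx2, pow_orderOf_eq_one]
  have hzz : z * z = 1 := congrArg Subtype.val F.model.z_sq
  have hz1 : z ≠ 1 := fun h1 => F.model.z_ne (Subtype.ext h1)
  obtain ⟨t, ht2, hxt, -⟩ := H291.Parity.exists_comm_invo x hxx (w := 1) (map_one x) (by
    have : centralizer ({1} : Set T) = ⊤ := by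
      rw [eq_top_iff]
      intro y _
      rw [mem_centralizer_singleton_iff, mul_one, one_mul]
    rw [this, Subgroup.card_top, hcK]
    decide)
  obtain ⟨g, hg⟩ := F.one t (fun h2 => by rw [h2, orderOf_one] at ht2; omega)
    (by rw [← pow_two, ← ht2, pow_orderOf_eq_one])
  set β : MulAut T := MulAut.conj g⁻¹ * x * (MulAut.conj g⁻¹)⁻¹ with hβdef
  have hβ : ∀ y, β y = g⁻¹ * x (g * y * g⁻¹) * g := by
    intro y
    rw [hβdef, ← map_inv, inv_inv]
    change g⁻¹ * x (g * y * g⁻¹) * g⁻¹⁻¹ = _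
    rw [inv_inv]
  have hβz : β z = z := by rw [hβ, hg, hxt, ← hg]; group
  have hββ : ∀ y, β (β y) = y := by
    intro y
    have h1 : β * β = 1 := by
      rw [hβdef]
      calc _ = MulAut.conj g⁻¹ * (x * x) * (MulAut.conj g⁻¹)⁻¹ := by group
        _ = 1 := by rw [hxx]; group
    exact congrArg (fun k : MulAut T => k y) h1
  have hβo : ¬ ∃ k, β = MulAut.conj k := by
    rintro ⟨k, hk⟩
    apply hout (g * k * g⁻¹)
    rw [map_mul, map_mul, ← hk, hβdef, map_inv]
    group
  obtain ⟨σ, hσ⟩ := exists_perm F.card_C F.model hβz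
  have hsign : Equiv.Perm.sign σ = -1 := by
    apply int_sign
    intro h1
    refine hβo (inner_of_even F.card_C F.model (n₀ := n) ?_ ?_ F.gen hβz hσ h1)
    · rw [F.nz]
      exact ⟨v 0, F.model.v_mem 0, rfl⟩
    · rw [F.nz]
      intro h1
      apply zv_ne_z F.model 0 0
      rw [zp_zero, one_mul]
      exact Subtype.ext h1
  -- the restriction to `C(z)`
  have hmap : ∀ y : T, y ∈ centralizer ({z} : Set T) → β y ∈ centralizer ({z} : Set T) := by
    intro y hy
    rw [mem_centralizer_singleton_iff] at hy ⊢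
    conv_lhs => rw [← hβz, ← map_mul, hy, map_mul, hβz]
  let b : MulAut (centralizer ({z} : Set T)) :=
    { toFun := fun y => ⟨β y.1, hmap y.1 y.2⟩
      invFun := fun y => ⟨β y.1, hmap y.1 y.2⟩
      left_inv := fun y => Subtype.ext (hββ y.1)
      right_inv := fun y => Subtype.ext (hββ y.1)
      map_mul' := fun y w => Subtype.ext (map_mul β y.1 w.1) }
  have hb : ∀ y, ((b y : centralizer ({z} : Set T)) : T) = β y := fun _ => rfl
  have hA : ∀ i, ∃ s : ZMod 2, b (v i) = zp (zc z) s * v (σ i) := by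
    intro i
    rcases hσ i with h1 | h1
    · exact ⟨0, by rw [zp_zero, one_mul]; exact Subtype.ext h1⟩
    · refine ⟨1, ?_⟩
      rw [zp_one, ← F.model.z_comm]
      exact Subtype.ext h1
  choose s hs using hA
  have h16 := core (a := b) F.model F.card_C (Subtype.ext hβz) (fun y => Subtype.ext (hββ y.1)) hs hsign
  -- transport
  let θ : Cfsg.Agent.H383.Cube.fix b →* Cfsg.Agent.H383.Cube.fix x :=
    { toFun := fun y => ⟨g * y.1.1 * g⁻¹, by
        have h1 : b y.1 = y.1 := y.2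
        have h2 : β y.1.1 = y.1.1 := congrArg Subtype.val h1
        rw [hβ] at h2
        change x (g * y.1.1 * g⁻¹) = g * y.1.1 * g⁻¹
        calc x (g * y.1.1 * g⁻¹) = g * (g⁻¹ * x (g * y.1.1 * g⁻¹) * g) * g⁻¹ := by group
          _ = _ := by rw [h2]⟩
      map_one' := Subtype.ext (by simp)
      map_mul' := fun y w => Subtype.ext (by
        change g * (y.1.1 * w.1.1) * g⁻¹ = g * y.1.1 * g⁻¹ * (g * w.1.1 * g⁻¹)
        group) }
  have hθ : Function.Injective θ := by
    intro y w h1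
    have h2 : g * y.1.1 * g⁻¹ = g * w.1.1 * g⁻¹ := congrArg Subtype.val h1
    have h3 := mul_left_cancel (mul_right_cancel h2)
    exact Subtype.ext (Subtype.ext h3)
  exact (by norm_num : (2 : ℕ) ^ 4 = 16) ▸ h16.trans (Subgroup.card_dvd_of_injective θ hθ)

end Cfsg.Agent.H469.IF
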